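import Cfsg.Agent.Lib.E8W.Frame

/-!
Involutions of `L0` and checkers for statements on the transported character.
-/

set_option autoImplicit false
set_option linter.style.haveILetI false

namespace H52.E8

open H10.Std Subgroup H12

attribute [local irreducible] E E0

theorem gd_R2 : Gd cR2 :=
  gd_of (y := 0x7be8e73a768c60e8be1383a0e6ce1084a1093a118bdb2851ca8c5b08c9ad8c1f08c1f0849f193def)
    (z := 0x93df494ded9421294630745b07c98a8c2518be536c5ec6bdcf7c60e7be118be30842528425083a53)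
    (by decide +kernel)

theorem gd_Rb : Gd cRb :=
  gd_of (y := 0x8be348c22e8c2139422e849ad7c98e83a53842507c9ca745b28c5ce8c5f08c21193e5083e3184231)
    (z := 0x936538c2708c5f19420e8be918b696841d1849cc7c62e7be1484dce8c1d0849cf8c1ee845af849ad)
    (by decide +kernel)

theorem gd_Rc : Gd cRc :=
  gd_of (y := 0x8ba707be748ca0f93a328360e651f084a1193a107bdd0751ac8c9af945ce8c9f09ba30849f193def)
    (z := 0x8ca2e8ba348be10842309cdef9c9f273a5173a50841f184dce8b9f184a0e8b9f18460e73a3173e2f)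
    (by decide +kernel)

theorem gd_R0 : Gd cR0 :=
  gd_of (y := 0x6be746c60e842107c9ef8b6768c2707c9cd7c5af9c1f0a3a529c1ce946118c1ee84610849cc841d1)
    (z := 0x63a2d5be10839f07c60e64a4d72e14939f184e0e8ce319ba13945f29c20f93df29462e9c1d194dee)
    (by decide +kernel)

def c6 : ℕ := 0x7d18a84190845cd841d0841f0842108420f84210832967c29083a5383e5084210841f083e5183e51

theorem gd_c6 : Gd c6 ∧ z0 * E0 cR2 = E0 c6 := by
  rw [← E0_cN]; exact gd_cN.mul gd_R2 (by decide +kernel)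

theorem isW_R1 : IsW cR1 := isW_rep _ (by simp [repL])

theorem isW_R3 : IsW cR3 := isW_rep _ (by simp [repL])

theorem E_R1 : ∃ r, ∃ h : q r = 1, E cR1 = Rf r h :=
  ⟨vec 0x7be108c1f1, by decide +kernel, (eq_E (by rw [Rf, mat_mkW]; decide +kernel)).2.symm⟩

theorem par_R1 : par (E cR1) = -1 := by
  obtain ⟨r, h, e⟩ := E_R1
  rw [e, par_Rf]

theorem R1_not : E cR1 ∉ L0 := by rw [mem_L0, par_R1]; decide

theorem R3_not : E cR3 ∉ L0 := fun h => by
  have hx : Gd 0x84212841ee7c612841ee8420e7c5f084211842108c1ec8461284210846107c2128420e8421084211 :=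
    gd_of (y := 0x8b9f27cdec7c9f0841ce8b2306d23084a1193a108be2e842547ca0e83df274dee839d084a1093a11)
      (z := 0x842107c1f084a108be106be30645b094211942507be107c5f0846108c21084a1093a309421094251)
      (by decide +kernel)
  rw [← (E_mul isW_R1 hx.1 (c := cR3) (by decide +kernel)).2] at h
  exact R1_not ((mul_mem_cancel_right hx.2).1 h)

/-- `c * a * c⁻¹ = b` -/
noncomputable def cjOk (a b c y z : ℕ) : Bool := gdOk c y z && eq2 c a b c

theorem cj_of {a b c y z : ℕ} (ha : Gd a) (hb : Gd b) (h : cjOk a b c y z = true) :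
    Gd c ∧ E0 c * E0 a * (E0 c)⁻¹ = E0 b := by
  rw [cjOk, Bool.and_eq_true] at h
  exact ⟨gd_of h.1, mul_inv_eq_of_eq_mul (E0_eq2 (gd_of h.1) ha hb (gd_of h.1) h.2)⟩

theorem neg_Rb : ∃ l : L0, l * E0 cRb * l⁻¹ = z0 * E0 cRb := by
  obtain ⟨h1, h2⟩ := gd_cN.mul gd_Rb
    (c := 0x6d1cb741907460f741d07422e742108421184210932538c29083a5383e5084211841f08be328be51)
    (by decide +kernel)
  rw [← E0_cN, h2]
  exact ⟨_, (cj_of gd_Rb h1
    (c := 0x951cfa39f29461094212755cd8b9d093a1184a1063e2f6420e7ba51746308ba51842528b6327ca2f)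
    (y := 0x9420c8be357ca2e83a13ac1b0ac230742507421193dd494a0b7c612841ee6c65073a1174231745ef)
    (z := 0x8ba158c62d8c1d18c9ed8ba94842737c1cf7c5cd7c66e7ba358460e84211849ce8c1ef7c1ee7c1ef)
    (by decide +kernel)).2⟩

theorem neg_Rc : ∃ l : L0, l * E0 cRc * l⁻¹ = z0 * E0 cRc := by
  obtain ⟨h1, h2⟩ := gd_cN.mul gd_Rc
    (c := 0x939cf851ee845cf849cea36128d21074a0f83a1083e7383a527ca1083df07c9cf841ce6ca2f7b611)
    (by decide +kernel)
  rw [← E0_cN, h2]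
  exact ⟨_, (cj_of gd_Rc h1
    (c := 0x9b2559429093e1194250941f2942108420f84210751cd7c190849cd845d08420f842307c5ee7c5cf)
    (y := 0x846709329593e308c2536525082e3193a1084a116c9d07458b8c1d0849ce939f084a1093dcf84dcf)
    (z := 0x9cd8ea41ee945f19c22f8bdef7c9cf845f08c20f6b6715c5f183a527c6318c23293e517be317c230)
    (by decide +kernel)).2⟩

theorem cj_of_neg {a b : L0} {c : W} (h : ∃ l : L0, l * b * l⁻¹ = z0 * b) (e : cj c a = z0 * b) :
    ∃ c, cj c a = b := by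
  obtain ⟨l, hl⟩ := h
  exact ⟨(l⁻¹ : L0) * c, by rw [cj_mul, e, ← hl, cj_coe]; group⟩

/-- the involutions of `L0` -/
theorem cls0 {a : L0} (h : a * a = 1) : a = 1 ∨ a = z0 ∨
    ∃ c : W, cj c a = E0 cR2 ∨ cj c a = E0 c6 ∨ cj c a = E0 cRb ∨ cj c a = E0 cRc := by
  obtain ⟨c, n, hn, e⟩ := classify (w := a) (Or.inl (congrArg Subtype.val h))
  rw [← coe_cj] at e
  have hm : E n ∈ L0 := by
    rcases e with e | e
    · exact e ▸ (cj c a).2
    · exact (mul_mem_cancel_left negW_mem).1 (e ▸ (cj c a).2)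
  have hg : Gd n := ⟨isW_rep n hn, hm⟩
  have e' : cj c a = E0 n ∨ cj c a = z0 * E0 n := by
    rw [← coe_E0 hg] at e
    exact e.imp Subtype.ext Subtype.ext
  simp only [repL, List.mem_cons, List.not_mem_nil, or_false] at hn
  rcases hn with rfl | rfl | rfl | rfl | rfl | rfl | rfl
  · rw [E0_cI, mul_one] at e'
    rcases e' with e' | e'
    · exact Or.inl ((EmbeddingLike.map_eq_one_iff).1 e')
    · exact Or.inr (Or.inl ((cj c).injective (e'.trans (cj_z0 c).symm)))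
  · exact absurd hm R1_not
  · rw [gd_c6.2] at e'
    exact Or.inr (Or.inr ⟨c, e'.imp_right Or.inl⟩)
  · exact absurd hm R3_not
  · rcases e' with e' | e'
    · exact Or.inr (Or.inr ⟨c, Or.inr (Or.inr (Or.inl e'))⟩)
    · obtain ⟨c, e'⟩ := cj_of_neg neg_Rb e'
      exact Or.inr (Or.inr ⟨c, Or.inr (Or.inr (Or.inl e'))⟩)
  · rcases e' with e' | e'
    · exact Or.inr (Or.inr ⟨c, Or.inr (Or.inr (Or.inr e'))⟩)
    · obtain ⟨c, e'⟩ := cj_of_neg neg_Rc e'
      exact Or.inr (Or.inr ⟨c, Or.inr (Or.inr (Or.inr e'))⟩)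
  · exfalso
    have h1 : E0 cR0 * E0 cR0 = z0 := by rw [← E0_cN]; exact (gd_R0.mul gd_R0 (by decide +kernel)).2
    have h2 : cj c a * cj c a = 1 := by rw [← map_mul, h, map_one]
    have h3 : π0 (cj c a) = π0 (E0 cR0) := π0_eq_iff.2 e'
    exact z0_ne (by rw [← h1, ← sq_of_π0 h3, h2])

theorem tr_R2 : tr (E0 cR2) = 4 := (tr_E0 gd_R2).trans (by decide +kernel)
theorem tr_c6 : tr (E0 c6) = -4 := (tr_E0 gd_c6.1).trans (by decide +kernel)
theorem tr_Rb : tr (E0 cRb) = 0 := (tr_E0 gd_Rb).trans (by decide +kernel)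
theorem tr_Rc : tr (E0 cRc) = 0 := (tr_E0 gd_Rc).trans (by decide +kernel)
theorem tr_z0 : tr z0 = -8 := by rw [← mul_one z0, tr_neg, tr_one]

theorem cls_tr {a : L0} (h : a * a = 1) : (a = 1 ∧ tr a = 8) ∨ (a = z0 ∧ tr a = -8) ∨
    ∃ c : W, (cj c a = E0 cR2 ∧ tr a = 4) ∨ (cj c a = E0 c6 ∧ tr a = -4) ∨
      ((cj c a = E0 cRb ∨ cj c a = E0 cRc) ∧ tr a = 0) := by
  rcases cls0 h with rfl | rfl | ⟨c, e | e | e | e⟩
  · exact Or.inl ⟨rfl, tr_one⟩
  · exact Or.inr (Or.inl ⟨rfl, tr_z0⟩)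
  · exact Or.inr (Or.inr ⟨c, Or.inl ⟨e, by rw [← tr_cj c, e, tr_R2]⟩⟩)
  · exact Or.inr (Or.inr ⟨c, Or.inr (Or.inl ⟨e, by rw [← tr_cj c, e, tr_c6]⟩)⟩)
  · exact Or.inr (Or.inr ⟨c, Or.inr (Or.inr ⟨Or.inl e, by rw [← tr_cj c, e, tr_Rb]⟩)⟩)
  · exact Or.inr (Or.inr ⟨c, Or.inr (Or.inr ⟨Or.inr e, by rw [← tr_cj c, e, tr_Rc]⟩)⟩)

theorem neg_of_tr {a : L0} (h : a * a = 1) (h0 : tr a = 0) : ∃ l : L0, l * a * l⁻¹ = z0 * a := by
  have key : ∀ {c : W} {b : L0}, cj c a = b → (∃ l : L0, l * b * l⁻¹ = z0 * b) →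
      ∃ l : L0, l * a * l⁻¹ = z0 * a := fun {c b} e ⟨l, hl⟩ =>
    ⟨(cj c).symm l, (cj c).injective (by
      rw [map_mul, map_mul, map_mul, map_inv, MulEquiv.apply_symm_apply, e, hl, cj_z0])⟩
  rcases cls_tr h with e | e | ⟨c, e | e | ⟨e | e, -⟩⟩
  · omega
  · omega
  · omega
  · omega
  exacts [key e neg_Rb, key e neg_Rc]

variable {G : Type*} [Group G] {f f' : L0 →* G}

theorem val (h' : In f') {x : G} (hx : x ∈ f'.range) (h2 : x * x = 1) (h1 : x ≠ 1) :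
    χ f' x = 0 ∨ χ f' x = 4 ∨ χ f' x = -4 ∨ (χ f' x = -8 ∧ x = f' z0) := by
  obtain ⟨a, rfl⟩ := hx
  rw [χ_apply h']
  rcases cls_tr (a := a) (h'.inj (by rw [map_mul, h2, map_one])) with e | e | ⟨c, e | e | e⟩
  · exact absurd (by rw [e.1, map_one]) h1
  · exact Or.inr (Or.inr (Or.inr ⟨e.2, by rw [e.1]⟩))
  all_goals omega

noncomputable def invOk (a : ℕ) : Bool := mulEq a a cI && !same a cI

theorem inv_of {a : ℕ} (ha : Gd a) (h : invOk a = true) : E0 a * E0 a = 1 ∧ E0 a ≠ 1 := by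
  rw [invOk, Bool.and_eq_true, Bool.not_eq_true'] at h
  rw [← E0_cI]
  exact ⟨by rw [(ha.mul ha h.1).2], E0_ne ha gd_cI h.2⟩

theorem valC (h : In f) (h' : In f') {a : ℕ} (ha : Gd a ∧ f (E0 a) ∈ f'.range) (e : invOk a = true) :
    χ f' (f (E0 a)) = 0 ∨ χ f' (f (E0 a)) = 4 ∨ χ f' (f (E0 a)) = -4 ∨
      (χ f' (f (E0 a)) = -8 ∧ f (E0 a) = f' z0) := by
  obtain ⟨h1, h2⟩ := inv_of ha.1 e
  exact val h' ha.2 (by rw [← map_mul, h1, map_one]) fun e => h2 (h.inj (e.trans (map_one f).symm))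

/-! ### Membership -/

noncomputable def memOk (τ x s : ℕ) : Bool :=
  isW x && (isW s && (mulEq x x cI && (eq2 τ x x τ && (eq2 τ s s τ &&
    (ev [s, s] s (fun c => Nat.beq c cI) && ev [s, x, s, x, s] x (fun c => Nat.beq c cI))))))

theorem Act.commC {t : G} {τ a : ℕ} (h : Act f t (E τ)) (hτ : IsW τ) (ha : Gd a)
    (e : eq2 τ a a τ = true) : f (E0 a) * t = t * f (E0 a) :=
  (h.comm (by rw [coe_E0 ha]; exact E_eq2 hτ ha.1 ha.1 hτ e)).symm

theorem memC [Finite G] (h' : In f') {τ x s : ℕ} (h : Act f (f' z0) (E τ)) (hτ : IsW τ)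
    (e : memOk τ x s = true) : Gd x ∧ f (E0 x) ∈ f'.range := by
  simp only [memOk, Bool.and_eq_true] at e
  obtain ⟨e1, e2, e3, e4, e5, e6, e7⟩ := e
  have hx := isW_of e1
  have hs := isW_of e2
  obtain ⟨c, c1, c2⟩ := ev_sound e6
  obtain rfl := Nat.eq_of_beq_eq_true c2
  obtain ⟨c, c3, c2⟩ := ev_sound e7
  obtain rfl := Nat.eq_of_beq_eq_true c2
  have s3 : E s ^ 3 = 1 := mat_inj (by
    rw [map_pow, mat_E hs, map_one, ← dec_cI, ← c1]; simp [pow_succ, mul_assoc])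
  have s3' : (E x * E s) ^ 3 = 1 := mat_inj (by
    rw [map_pow, map_mul, mat_E hs, mat_E hx, map_one, ← dec_cI, ← c3]; simp [pow_succ, mul_assoc])
  have gs : Gd s := ⟨hs, mem_of_cube (Or.inl s3)⟩
  have gx : Gd x := ⟨hx, (mul_mem_cancel_right gs.2).1 (mem_of_cube (Or.inl s3'))⟩
  have c4 := h.commC hτ gx e4
  have c5 := h.commC hτ gs e5
  refine ⟨gx, mem_range h' c5 (s' := f (E0 x) * f (E0 s)) ?_ ?_ ?_ rfl ?_⟩
  · rw [mul_assoc, c5, ← mul_assoc, c4, mul_assoc]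
  · rw [← map_pow, ← map_one f]
    exact congrArg f (Subtype.ext (by rw [Subgroup.coe_pow, coe_E0 gs, s3]; rfl))
  · rw [← map_mul, ← map_pow, ← map_one f]
    exact congrArg f (Subtype.ext (by
      rw [Subgroup.coe_pow, Subgroup.coe_mul, coe_E0 gs, coe_E0 gx, s3']; rfl))
  · rw [← map_mul, (gx.mul gx e3).2, E0_cI, map_one]

theorem memL [Finite G] (h' : In f') {τ : ℕ} (h : Act f (f' z0) (E τ)) (hτ : IsW τ)
    (T : List (ℕ × ℕ)) (e : (T.all fun p => memOk τ p.1 p.2) = true) :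
    ∀ x ∈ T.map (·.1), Gd x ∧ f (E0 x) ∈ f'.range := by
  intro x hx
  obtain ⟨p, hp, rfl⟩ := List.mem_map.1 hx
  exact memC h' h hτ (List.all_eq_true.1 e p hp)

theorem mem_mul {a b c : ℕ} (ha : Gd a ∧ f (E0 a) ∈ f'.range) (hb : Gd b ∧ f (E0 b) ∈ f'.range)
    (e : mulEq a b c = true) : Gd c ∧ f (E0 c) ∈ f'.range := by
  obtain ⟨h1, h2⟩ := ha.1.mul hb.1 e
  exact ⟨h1, by rw [← h2, map_mul]; exact mul_mem ha.2 hb.2⟩

/-! ### Projections -/

noncomputable def lv (l : List ℕ) : ℕ → List ℕ → (List ℕ → Bool) → Bool :=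
  List.rec (motive := fun _ => ℕ → List ℕ → (List ℕ → Bool) → Bool)
    (fun y L k => List.rec (motive := fun _ => Bool) false (fun c L' _ => Nat.beq c y && k L') L)
    (fun x _ ih y L k => ih y L fun L' => force (mulN y x) fun u => mulEq y x u && ih u L' k) l

theorem lv_cons (x : ℕ) (l : List ℕ) (y : ℕ) (L : List ℕ) (k : List ℕ → Bool) :
    lv (x :: l) y L k = lv l y L fun L' => force (mulN y x) fun u => mulEq y x u && lv l u L' k := by
  delta lv; rfl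

theorem lv_sound {l : List ℕ} (hl : ∀ x ∈ l, Gd x ∧ f (E0 x) ∈ f'.range) {y : ℕ} {L : List ℕ}
    {k : List ℕ → Bool} (h : lv l y L k = true) (hy : Gd y ∧ f (E0 y) ∈ f'.range) :
    ∃ L1 L2, L = L1 ++ L2 ∧ k L2 = true ∧ (∀ c ∈ L1, Gd c ∧ f (E0 c) ∈ f'.range) ∧
      ∀ φ : L0 → ℤ, SG φ (l.map E0) (E0 y) = (L1.map fun c => φ (E0 c)).sum := by
  induction l generalizing y L k with
  | nil =>
    cases L with
    | nil => cases h
    | cons c L =>
      have h' : (Nat.beq c y && k L) = true := h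
      rw [Bool.and_eq_true] at h'
      obtain rfl := Nat.eq_of_beq_eq_true h'.1
      exact ⟨[c], L, rfl, h'.2, by simpa using hy, fun φ => by simp [SG]⟩
  | cons x l ih =>
    rw [lv_cons] at h
    have hl' := fun z hz => hl z (List.mem_cons_of_mem x hz)
    obtain ⟨L1, L2, rfl, h1, h2, h3⟩ := ih hl' h hy
    rw [force_eq, Bool.and_eq_true] at h1
    have hx := hl x (by simp)
    obtain ⟨L3, L4, rfl, h4, h5, h6⟩ := ih hl' h1.2 (mem_mul hy hx h1.1)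
    refine ⟨L1 ++ L3, L4, by simp, h4, fun c hc => ?_, fun φ => ?_⟩
    · exact (List.mem_append.1 hc).elim (h2 c) (h5 c)
    · rw [List.map_cons, SG, h3, (hy.1.mul hx.1 h1.1).2, h6]; simp

noncomputable def projOk (l L : List ℕ) : Bool :=
  (l.all fun x => mulEq x x cI && l.all fun y => eq2 x y y x) && lv l cI L List.isEmpty

theorem projC (h' : In f') {l : List ℕ} (hl : ∀ x ∈ l, Gd x ∧ f (E0 x) ∈ f'.range) (L : List ℕ)
    (h : projOk l L = true) : (∀ c ∈ L, Gd c ∧ f (E0 c) ∈ f'.range) ∧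
      ∃ r : ℕ, (L.map fun c => χ f' (f (E0 c))).sum = (2 ^ l.length : ℕ) * r := by
  rw [projOk, Bool.and_eq_true, List.all_eq_true] at h
  obtain ⟨L1, L2, rfl, h1, h2, h3⟩ := lv_sound hl h.2 ⟨gd_cI, by rw [E0_cI, map_one]; exact one_mem _⟩
  obtain rfl := List.isEmpty_iff.1 h1
  rw [List.append_nil]
  refine ⟨h2, ?_⟩
  rw [← h3 fun a => χ f' (f a), E0_cI, ← List.length_map E0]
  refine proj h' _ (fun a ha => ?_) (fun a ha => ?_) fun a ha b hb => ?_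
  · obtain ⟨x, hx, rfl⟩ := List.mem_map.1 ha
    exact (hl x hx).2
  · obtain ⟨x, hx, rfl⟩ := List.mem_map.1 ha
    have := h.1 x hx
    rw [Bool.and_eq_true] at this
    rw [((hl x hx).1.mul (hl x hx).1 this.1).2, E0_cI]
  · obtain ⟨x, hx, rfl⟩ := List.mem_map.1 ha
    obtain ⟨y, hy, rfl⟩ := List.mem_map.1 hb
    have := h.1 x hx
    rw [Bool.and_eq_true, List.all_eq_true] at this
    exact E0_eq2 (hl x hx).1 (hl y hy).1 (hl y hy).1 (hl x hx).1 (this.2 y hy)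

theorem χ_cI (h' : In f') : χ f' (f (E0 cI)) = 8 := by rw [E0_cI, map_one, χ_one h']

/-! ### Relations between values -/

noncomputable def relOk (τ a b c y z : ℕ) : Bool := cjOk a b c y z && eq2 τ c c τ

theorem relC (h' : In f') {τ : ℕ} (h : Act f (f' z0) (E τ)) (hτ : IsW τ) {a b c y z : ℕ} (ha : Gd a)
    (hb : Gd b) (e : relOk τ a b c y z = true) : χ f' (f (E0 a)) = χ f' (f (E0 b)) := by
  rw [relOk, Bool.and_eq_true] at e
  obtain ⟨h1, h2⟩ := cj_of ha hb e.1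
  rw [← h2, map_mul, map_mul, map_inv, χ_conj h' (h.commC hτ h1 e.2)]

def inL (L : List ℕ) (a : ℕ) : Bool := L.any fun b => Nat.beq b a

theorem inL_sound {L : List ℕ} {a : ℕ} (h : inL L a = true) : a ∈ L := by
  obtain ⟨b, hb, e⟩ := List.any_eq_true.1 h
  exact Nat.eq_of_beq_eq_true e ▸ hb

theorem relL (h' : In f') {τ : ℕ} (h : Act f (f' z0) (E τ)) (hτ : IsW τ) {L : List ℕ}
    (hL : ∀ c ∈ L, Gd c ∧ f (E0 c) ∈ f'.range) (T : List (ℕ × ℕ × ℕ × ℕ × ℕ))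
    (e : (T.all fun p => inL L p.1 && (inL L p.2.1 &&
      relOk τ p.1 p.2.1 p.2.2.1 p.2.2.2.1 p.2.2.2.2)) = true) :
    ∀ p ∈ T, χ f' (f (E0 p.1)) = χ f' (f (E0 p.2.1)) := by
  intro p hp
  have := List.all_eq_true.1 e p hp
  rw [Bool.and_eq_true, Bool.and_eq_true] at this
  exact relC h' h hτ (hL _ (inL_sound this.1)).1 (hL _ (inL_sound this.2.1)).1 this.2.2

theorem act_of_eq {τ : ℕ} (hτ : Gd τ) {t : G} (h : f (E0 τ) = t) : Act f t (E τ) := by
  rw [← h, ← coe_E0 hτ]; exact act_self f _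

theorem negL (h' : In f') {τ : ℕ} (hτ : Gd τ) (h : f (E0 τ) = f' z0) {L : List ℕ}
    (hL : ∀ c ∈ L, Gd c ∧ f (E0 c) ∈ f'.range) (T : List (ℕ × ℕ × ℕ × ℕ × ℕ))
    (e : (T.all fun p => inL L p.1 && (inL L p.2.1 && force (mulN τ p.2.1) fun u =>
      mulEq τ p.2.1 u && relOk τ p.1 u p.2.2.1 p.2.2.2.1 p.2.2.2.2)) = true) :
    ∀ p ∈ T, χ f' (f (E0 p.1)) = -χ f' (f (E0 p.2.1)) := by
  intro p hp
  have := List.all_eq_true.1 e p hp
  rw [Bool.and_eq_true, Bool.and_eq_true, force_eq, Bool.and_eq_true] at this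
  obtain ⟨h1, h2⟩ := hτ.mul (hL _ (inL_sound this.2.1)).1 this.2.2.1
  rw [relC h' (act_of_eq hτ h) hτ.1 (hL _ (inL_sound this.1)).1 h1 this.2.2.2, ← h2, map_mul, h,
    χ_neg h']

end H52.E8
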