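import Cfsg.Agent.Lib.E8W.Ident
import Cfsg.Agent.Lib.E8W.Cls

/-!
Standard embeddings of `L0`: actions, the transported character, projections.
-/

set_option autoImplicit false
set_option linter.style.haveILetI false

namespace H52.E8

open H10.Std Subgroup

variable {G : Type*} [Group G]

abbrev In (f : L0 →* G) : Prop := Intr f z0

/-- `g` acts on the image of `f` as `w` -/
def Act (f : L0 →* G) (g : G) (w : W) : Prop := ∀ a, g * f a * g⁻¹ = f (cj w a)

variable {f f' : L0 →* G}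

theorem exists_act (h : In f) {g : G} (hg : g * f z0 = f z0 * g) : ∃ w, Act f g w := by
  obtain ⟨α, hα⟩ := h.exists_aut hg
  obtain ⟨w, hw⟩ := aut_L0 α
  exact ⟨w, fun a => by rw [hα, hw]⟩

theorem act_self (f : L0 →* G) (a : L0) : Act f (f a) a := fun b => by
  rw [cj_coe, map_mul, map_mul, map_inv]

namespace Act

variable {g g' : G} {w w' : W}

theorem mul (h : Act f g w) (h' : Act f g' w') : Act f (g * g') (w * w') := fun a => by
  rw [cj_mul, ← h, ← h']; group

theorem inv (h : Act f g w) : Act f g⁻¹ w⁻¹ := fun a => by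
  have := h (cj w⁻¹ a)
  rw [← cj_mul, mul_inv_cancel, cj_one] at this
  rw [← this]; group

theorem neg (h : Act f g w) : Act f g (negW * w) := fun a => by rw [cj_neg, h]

theorem of_neg (h : Act f g (negW * w)) : Act f g w := fun a => by rw [h, cj_neg]

theorem comm (h : Act f g w) {a : L0} (e : w * a = a * w) : g * f a = f a * g := by
  have : cj w a = a := Subtype.ext (by rw [coe_cj, e, mul_inv_cancel_right])
  rw [← mul_inv_eq_iff_eq_mul, h, this]

theorem comm_z (h : Act f g w) : g * f z0 = f z0 * g := h.comm (negW_comm w)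

theorem uniq (hf : In f) (h : Act f g w) (h' : Act f g w') : w = w' ∨ w = negW * w' := by
  have := cent (w := w * w'⁻¹) fun a => by
    have e := (h.mul h'.inv) a
    rw [mul_inv_cancel, one_mul, inv_one, mul_one] at e
    have e2 := congrArg Subtype.val (hf.inj e)
    rw [coe_cj] at e2
    exact (eq_mul_inv_iff_mul_eq.1 e2).symm
  rwa [mul_inv_eq_one, mul_inv_eq_iff_eq_mul] at this

theorem one : Act f 1 1 := fun a => by rw [cj_one]; group

theorem sq (hf : In f) (h : Act f g w) (h2 : g * g = 1) : w * w = 1 ∨ w * w = negW := by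
  have := (h2 ▸ h.mul h).uniq hf one
  rwa [mul_one] at this

theorem mem_K (h : Act f g w) (e : π w = 1) : g ∈ KK f := mem_KK.2 fun a => by
  rcases ker_π e with rfl | rfl
  · exact (h.comm (by simp)).symm
  · exact (h.comm (negW_comm _).symm).symm

theorem pow (h : Act f g w) (n : ℕ) : Act f (g ^ n) (w ^ n) := by
  induction n with
  | zero => simpa using one
  | succ n ih => rw [pow_succ, pow_succ]; exact ih.mul h

theorem dec (hf : In f) {b : L0} (h : Act f g b) : ∃ k ∈ KK f, g = k * f b :=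
  hf.dec_of_inner fun a => h a

theorem conj_mul (h : Act f g w) {l x y : L0} (e : l * (w * x) = w * y * l) :
    f l * (g * f x) * (f l)⁻¹ = g * f y := by
  have h1 := h.inv l
  have h2 : cj w⁻¹ l * x * l⁻¹ = y := Subtype.ext (by
    rw [Subgroup.coe_mul, Subgroup.coe_mul, coe_cj, Subgroup.coe_inv]
    calc _ = w⁻¹ * (l * (w * x)) * (l : W)⁻¹ := by group
      _ = _ := by rw [e]; group)
  rw [← h2, map_mul, map_mul, ← h1, map_inv]; group

theorem mem_of_eq (hf : In f) {a : L0} (h : Act f (f a) w) : w ∈ L0 := by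
  rcases h.uniq hf (act_self f a) with rfl | rfl
  exacts [a.2, mul_mem negW_mem a.2]

end Act

/-- twisting by an element of `W` -/
noncomputable def tw (f : L0 →* G) (c : W) : L0 →* G := f.comp (cj c⁻¹).toMonoidHom

theorem tw_cj (f : L0 →* G) (c : W) (a : L0) : tw f c (cj c a) = f a := by
  show f (cj c⁻¹ (cj c a)) = _
  rw [← cj_mul, inv_mul_cancel, cj_one]

theorem tw_z (f : L0 →* G) (c : W) : tw f c z0 = f z0 := by rw [← tw_cj f c z0, cj_z0]

theorem tw_range (f : L0 →* G) (c : W) : (tw f c).range = f.range := by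
  ext x
  exact ⟨fun ⟨a, h⟩ => ⟨_, h⟩, fun ⟨a, h⟩ => ⟨_, (tw_cj f c a).trans h⟩⟩

theorem In.tw (h : In f) (c : W) : In (tw f c) where
  inj := h.inj.comp (cj c⁻¹).injective
  cen := cen
  ord := ord_z0
  nrm g hg a := by
    rw [tw_z] at hg
    obtain ⟨b, hb⟩ := h.nrm g hg (cj c⁻¹ a)
    exact ⟨cj c b, hb.trans (tw_cj f c b).symm⟩
  cyc P hP := h.cyc P (by rwa [KK, tw_range] at hP)

theorem Act.tw {g : G} {w : W} (h : Act f g w) (c : W) : Act (tw f c) g (c * w * c⁻¹) := fun a => by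
  rw [cj_mul, cj_mul, tw_cj]
  exact h _

/-- conjugating in `G` -/
noncomputable def cf (g : G) (f : L0 →* G) : L0 →* G := (MulAut.conj g).toMonoidHom.comp f

theorem cf_apply (g : G) (f : L0 →* G) (a : L0) : cf g f a = g * f a * g⁻¹ := rfl

theorem In.cf (h : In f) (g : G) : In (cf g f) where
  inj := (MulAut.conj g).injective.comp h.inj
  cen := cen
  ord := ord_z0
  nrm x hx a := by
    rw [cf_apply] at hx
    obtain ⟨b, hb⟩ := h.nrm (g⁻¹ * x * g) (by
      calc _ = g⁻¹ * (x * (g * f z0 * g⁻¹)) * g := by group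
        _ = _ := by rw [hx]; group) a
    exact ⟨b, by rw [cf_apply, cf_apply, ← hb]; group⟩
  cyc P hP hp := by
    haveI := h.cyc (P.map (MulAut.conj g⁻¹).toMonoidHom) (by
      rintro _ ⟨x, hx, rfl⟩
      refine mem_KK.2 fun a => ?_
      have := KK.comm (hP hx) a
      rw [cf_apply] at this
      show f a * (g⁻¹ * x * g⁻¹⁻¹) = g⁻¹ * x * g⁻¹⁻¹ * f a
      calc _ = g⁻¹ * (g * f a * g⁻¹ * x) * g := by group
        _ = _ := by rw [this]; group) (hp.map _)
    exact isCyclic_of_surjective _ 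
      (equivMapOfInjective P (MulAut.conj g⁻¹).toMonoidHom (MulAut.conj g⁻¹).injective).symm.surjective

/-- central involutions of standard embeddings -/
def Z (x : G) : Prop := ∃ f : L0 →* G, In f ∧ f z0 = x

theorem Z.conj {x : G} (h : Z x) (g : G) : Z (g * x * g⁻¹) := by
  obtain ⟨f, hf, rfl⟩ := h
  exact ⟨cf g f, hf.cf g, rfl⟩

theorem Z.sq {x : G} (h : Z x) : x * x = 1 := by
  obtain ⟨f, hf, rfl⟩ := h
  exact hf.z_sq

theorem Z.ne {x : G} (h : Z x) : x ≠ 1 := by
  obtain ⟨f, hf, rfl⟩ := h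
  exact hf.z_ne

theorem In.z (h : In f) : Z (f z0) := ⟨f, h, rfl⟩

open Classical in
/-- the transported character -/
noncomputable def χ (f : L0 →* G) (x : G) : ℤ := if h : ∃ a, f a = x then tr h.choose else 0

theorem χ_apply (h : In f) (a : L0) : χ f (f a) = tr a := by
  have : ∃ b, f b = f a := ⟨a, rfl⟩
  rw [χ, dif_pos this, h.inj this.choose_spec]

theorem χ_not {x : G} (h : x ∉ f.range) : χ f x = 0 := dif_neg h

theorem χ_conj (h : In f) {c : G} (hc : c * f z0 = f z0 * c) (x : G) :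
    χ f (c * x * c⁻¹) = χ f x := by
  obtain ⟨w, hw⟩ := exists_act h hc
  by_cases hx : x ∈ f.range
  · obtain ⟨a, rfl⟩ := hx
    rw [hw, χ_apply h, χ_apply h, tr_cj]
  · rw [χ_not hx, χ_not]
    rintro ⟨a, ha⟩
    exact hx ⟨cj w⁻¹ a, by rw [← hw.inv, ha]; group⟩

theorem χ_neg (h : In f) (x : G) : χ f (f z0 * x) = -χ f x := by
  by_cases hx : x ∈ f.range
  · obtain ⟨a, rfl⟩ := hx
    rw [← map_mul, χ_apply h, χ_apply h, tr_neg]
  · rw [χ_not hx, χ_not, neg_zero]
    rintro ⟨a, ha⟩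
    exact hx ⟨z0⁻¹ * a, by rw [map_mul, ha, map_inv, inv_mul_cancel_left]⟩

theorem χ_one (h : In f) : χ f 1 = 8 := by rw [← map_one f, χ_apply h, tr_one]

/-! ### Elements of odd order -/

theorem odd_mul [Finite G] (h : In f) {k k' : G} (hk : k ∈ KK f) (hk' : k' ∈ KK f)
    (e : k ^ 3 = 1) (e' : k' ^ 3 = 1) : Odd (orderOf (k' * k⁻¹)) := by
  haveI := Fact.mk Nat.prime_two
  obtain ⟨P⟩ : Nonempty (Sylow 2 (KK f)) := inferInstance
  have c : IsCyclic ((P : Subgroup (KK f)).map (KK f).subtype) :=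
    h.cyc _ (map_subtype_le _) (P.isPGroup'.map _)
  have c' : IsCyclic (P : Subgroup (KK f)) :=
    isCyclic_of_surjective _ (equivMapOfInjective _ _ (KK f).subtype_injective).symm.surjective
  have hm : (Nat.card (KK f)).minFac = 2 := by
    rw [Nat.minFac_eq_two_iff, ← h.ordz]
    simpa using orderOf_dvd_natCard (⟨f z0, h.z_mem_K⟩ : KK f)
  have key : ∀ x : KK f, x ^ 3 = 1 →
      x ∈ (MonoidHom.transferSylow P (c'.normalizer_le_centralizer hm)).ker := fun x hx => by
    rw [MonoidHom.mem_ker]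
    obtain ⟨n, hn⟩ := P.isPGroup' (MonoidHom.transferSylow P (c'.normalizer_le_centralizer hm) x)
    rw [← orderOf_eq_one_iff]
    exact Nat.eq_one_of_dvd_coprimes (Nat.Coprime.pow_right n (by decide : Nat.Coprime 3 2))
      (orderOf_dvd_of_pow_eq_one (by rw [← map_pow, hx, map_one])) (orderOf_dvd_of_pow_eq_one hn)
  have hx' := mul_mem (key ⟨k', hk'⟩ (Subtype.ext e')) (inv_mem (key ⟨k, hk⟩ (Subtype.ext e)))
  have := MonoidHom.not_dvd_card_ker_transferSylow P (c'.normalizer_le_centralizer hm)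
  have d := orderOf_dvd_natCard
    (⟨_, hx'⟩ : (MonoidHom.transferSylow P (c'.normalizer_le_centralizer hm)).ker)
  rw [← Nat.not_even_iff_odd, even_iff_two_dvd]
  intro h2
  refine this (h2.trans ?_)
  rw [← orderOf_mk, ← orderOf_mk] 
  exact d

theorem mem_of_cube {w : W} (h : w ^ 3 = 1 ∨ w ^ 3 = negW) : w ∈ L0 := by
  have h1 : par w ^ 3 = 1 := by
    rw [← map_pow]
    rcases h with e | e <;> rw [e]
    exacts [map_one _, negW_mem]
  rw [mem_L0]
  rwa [pow_succ, pow_two, Int.units_mul_self, one_mul] at h1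

theorem odd_dec (h : In f) {s : G} (hs : s * f z0 = f z0 * s) (e : s ^ 3 = 1) :
    ∃ k ∈ KK f, ∃ b, s = k * f b ∧ k ^ 3 = 1 := by
  obtain ⟨w, hw⟩ := exists_act h hs
  have h1 := (e ▸ hw.pow 3).uniq h Act.one
  rw [mul_one] at h1
  obtain ⟨k, hk, rfl⟩ := Act.dec h (b := ⟨w, mem_of_cube h1⟩) hw
  rw [KK.pow hk] at e
  have e2 : f (⟨w, mem_of_cube h1⟩ ^ 3) = (k ^ 3)⁻¹ := eq_inv_of_mul_eq_one_right e
  rcases h.f_mem_K.1 (e2 ▸ inv_mem (pow_mem hk 3)) with a | a
  · rw [a, map_one, mul_one] at e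
    exact ⟨k, hk, _, rfl, e⟩
  · rw [a] at e
    refine ⟨k * f z0, mul_mem hk h.z_mem_K, z0 * ⟨w, mem_of_cube h1⟩, ?_, ?_⟩
    · rw [mul_assoc, ← map_mul, ← mul_assoc, z0_sq, one_mul]
    · rw [KK.pow hk, pow_succ z0, pow_two, z0_sq, one_mul, e]

/-- an involution which is a quotient of two elements of order 3 lies in the image -/
theorem mem_range [Finite G] (h : In f) {s s' x : G} (hs : s * f z0 = f z0 * s)
    (hs' : s' * f z0 = f z0 * s') (e : s ^ 3 = 1) (e' : s' ^ 3 = 1) (hx : x * s = s')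
    (h2 : x * x = 1) : x ∈ f.range := by
  obtain ⟨k, hk, b, rfl, k3⟩ := odd_dec h hs e
  obtain ⟨k', hk', b', rfl, k3'⟩ := odd_dec h hs' e'
  have e1 : x = k' * k⁻¹ * f (b' * b⁻¹) := by
    rw [eq_mul_inv_of_mul_eq hx, mul_inv_rev, ← map_inv, KK.comm (inv_mem hk),
      KK.mul_mul (inv_mem hk)]
  rcases h.inv_dec (mul_mem hk' (inv_mem hk)) (e1 ▸ h2) with ⟨c, hc, -⟩ | ⟨c, -⟩
  · exact ⟨c, (e1.trans hc).symm⟩
  · exfalso
    have o := odd_mul h hk hk' k3 k3'
    have d : orderOf (f z0) ∣ orderOf (k' * k⁻¹) := by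
      rw [← c, ← pow_two]; exact orderOf_pow_dvd 2
    rw [h.ordz] at d
    exact (Nat.not_even_iff_odd.2 o) (even_iff_two_dvd.2 d)

/-! ### Projections -/

theorem trace_proj {P : M} {N : ℕ} (hN : N ≠ 0) (h : P * P = (N : ℤ) • P) :
    ∃ r : ℕ, P.trace = N * r := by
  let e : Matrix ι ι ℚ := (N : ℚ)⁻¹ • P.map (Int.castRingHom ℚ)
  have hN' : (N : ℚ) ≠ 0 := Nat.cast_ne_zero.2 hN
  have he : e * e = e := by
    have h1 : P.map (Int.castRingHom ℚ) * P.map (Int.castRingHom ℚ) =
        (N : ℚ) • P.map (Int.castRingHom ℚ) := by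
      rw [← Matrix.map_mul, h]; ext i j; simp [-nsmul_eq_mul, -zsmul_eq_mul, -natCast_zsmul]
    simp only [e, smul_mul_smul_comm, h1, smul_smul]
    rw [mul_assoc, inv_mul_cancel₀ hN', mul_one]
  have hi : IsIdempotentElem (Matrix.toLin' e) := by
    rw [IsIdempotentElem, Module.End.mul_eq_comp, ← Matrix.toLin'_mul, he]
  have ht := (LinearMap.IsIdempotentElem.isProj_range _ hi).trace
  rw [Matrix.trace_toLin'_eq] at ht
  refine ⟨Module.finrank ℚ (LinearMap.range (Matrix.toLin' e)), ?_⟩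
  have h2 : (P.trace : ℚ) = N * e.trace := by
    simp only [e, Matrix.trace_smul, smul_eq_mul]
    rw [← mul_assoc, mul_inv_cancel₀ hN', one_mul]
    exact (AddMonoidHom.map_trace (Int.castRingHom ℚ) P)
  rw [ht] at h2
  exact_mod_cast h2

/-- the sum of `φ` over the products of `y` with the sublists of `l` -/
def SG {α : Type*} [Mul α] (φ : α → ℤ) : List α → α → ℤ
  | [], y => φ y
  | x :: l, y => SG φ l y + SG φ l (y * x)

theorem SG_tr (l : List L0) (y : L0) :
    SG tr l y = (mat y * (l.map fun x : L0 => 1 + mat x).prod).trace := by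
  induction l generalizing y with
  | nil => simp [SG, tr]
  | cons x l ih =>
    rw [SG, ih, ih, List.map_cons, List.prod_cons, add_mul, one_mul, mul_add, Matrix.trace_add,
      Subgroup.coe_mul, map_mul, mul_assoc]

theorem prod_sq (l : List L0) (h2 : ∀ x ∈ l, x * x = 1) (hc : ∀ x ∈ l, ∀ y ∈ l, x * y = y * x) :
    (l.map fun x : L0 => 1 + mat x).prod * (l.map fun x : L0 => 1 + mat x).prod =
      ((2 ^ l.length : ℕ) : ℤ) • (l.map fun x : L0 => 1 + mat x).prod := by
  induction l with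
  | nil => simp
  | cons x l ih =>
    have ih := ih (fun y hy => h2 y (by simp [hy])) fun y hy z hz => hc y (by simp [hy]) z (by simp [hz])
    have c : Commute (1 + mat x) (l.map fun x : L0 => 1 + mat x).prod := by
      refine Commute.list_prod_right _ _ fun m hm => ?_
      obtain ⟨y, hy, rfl⟩ := List.mem_map.1 hm
      have : Commute (mat x) (mat y) := by
        rw [Commute, SemiconjBy, ← map_mul, ← map_mul, ← Subgroup.coe_mul, ← Subgroup.coe_mul,
          hc x (by simp) y (by simp [hy])]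
      exact (Commute.one_left _).add_left ((Commute.one_right _).add_right this)
    have s : (1 + mat x) * (1 + mat x) = (2 : ℤ) • (1 + mat x) := by
      have : mat x * mat x = 1 := by rw [← map_mul, ← Subgroup.coe_mul, h2 x (by simp)]; simp
      rw [mul_add, add_mul, add_mul, this, two_smul]; simp [add_comm]
    rw [List.map_cons, List.prod_cons, c.symm.mul_mul_mul_comm, s, ih, smul_mul_smul_comm,
      List.length_cons]
    congr 1
    push_cast
    ring

theorem SG_lift (h' : In f') (l : List L0) (hl : ∀ x ∈ l, f x ∈ f'.range) :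
    ∃ l' : List L0, l'.map f' = l.map f ∧ ∀ y y', f' y' = f y →
      SG (fun a => χ f' (f a)) l y = SG tr l' y' := by
  induction l with
  | nil => exact ⟨[], rfl, fun y y' e => by rw [SG, SG, ← e, χ_apply h']⟩
  | cons x l ih =>
    obtain ⟨l', h1, h2⟩ := ih fun y hy => hl y (by simp [hy])
    obtain ⟨x', hx⟩ := hl x (by simp)
    exact ⟨x' :: l', by simp [h1, hx], fun y y' e => by
      rw [SG, SG, h2 y y' e, h2 (y * x) (y' * x') (by rw [map_mul, map_mul, e, hx])]⟩

theorem proj (h' : In f') (l : List L0) (hl : ∀ x ∈ l, f x ∈ f'.range)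
    (h2 : ∀ x ∈ l, x * x = 1) (hc : ∀ x ∈ l, ∀ y ∈ l, x * y = y * x) :
    ∃ r : ℕ, SG (fun a => χ f' (f a)) l 1 = (2 ^ l.length : ℕ) * r := by
  obtain ⟨l', e1, e2⟩ := SG_lift h' l hl
  have hm : ∀ x' ∈ l', ∃ x ∈ l, f x = f' x' := fun x' hx' =>
    List.mem_map.1 (e1 ▸ List.mem_map_of_mem hx')
  have hlen : l'.length = l.length := by simpa using congrArg List.length e1
  rw [e2 1 1 (by rw [map_one, map_one]), SG_tr, Subgroup.coe_one, map_one, one_mul, ← hlen]
  refine trace_proj (by positivity) (prod_sq l' (fun x' hx' => ?_) fun x' hx' y' hy' => ?_)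
  · obtain ⟨x, hx, e⟩ := hm x' hx'
    exact h'.inj (by rw [map_mul, ← e, ← map_mul, h2 x hx, map_one, map_one])
  · obtain ⟨x, hx, e⟩ := hm x' hx'
    obtain ⟨y, hy, e'⟩ := hm y' hy'
    exact h'.inj (by rw [map_mul, map_mul, ← e, ← e', ← map_mul, ← map_mul, hc x hx y hy])

end H52.E8
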