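import Cfsg.Agent.Lib.E8W.Chk
import Cfsg.Agent.Lib.E8W.Data

/-!
The involutions of `W / ±1` other than the classes `2A₁` and `A₁` are not induced by conjugates of
the central involution.
-/

set_option autoImplicit false
set_option linter.style.haveILetI false

namespace H52.E8

open H10.Std Subgroup H12

attribute [local irreducible] E E0 χ

variable {G : Type*} [Group G] [Finite G] {f f' : L0 →* G}

omit [Finite G] in
theorem projN (h' : In f') {l : List ℕ} (hl : ∀ x ∈ l, Gd x ∧ f (E0 x) ∈ f'.range) (L : List ℕ)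
    (N : ℕ) (h : (projOk l L && Nat.beq (2 ^ l.length) N) = true) :
    (∀ c ∈ L, Gd c ∧ f (E0 c) ∈ f'.range) ∧
      ∃ r : ℕ, (L.map fun c => χ f' (f (E0 c))).sum = N * r := by
  rw [Bool.and_eq_true] at h
  rw [← Nat.eq_of_beq_eq_true h.2]
  exact projC h' hl L h.1

theorem K1 (h : In f) : ¬ Z (f (E0 c6)) := by
  rintro ⟨f', h', e⟩
  have ha := act_of_eq gd_c6.1 e.symm
  have hm := memL h' ha gd_c6.1.1 m1 (by decide +kernel)
  obtain ⟨hL, r, hr⟩ := projN h' hm l1 16 (by decide +kernel)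
  have h1 := relL h' ha gd_c6.1.1 hL p1 (by decide +kernel)
  have h2 := negL h' gd_c6.1 e.symm hL n1 (by decide +kernel)
  have h3 := valC h h' (hL b1 (inL_sound (by decide +kernel))) (by decide +kernel)
  have h4 := χ_cI (f := f) h'
  obtain ⟨φ, hφ⟩ : ∃ φ : ℕ → ℤ, ∀ c, χ f' (f (E0 c)) = φ c := ⟨_, fun _ => rfl⟩
  simp only [hφ, l1, p1, n1, b1, cI, List.map_cons, List.map_nil, List.sum_cons, List.sum_nil,
    List.forall_mem_cons, List.not_mem_nil, false_imp_iff, implies_true, and_true] at hr h1 h2 h3 h4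
  omega

theorem K2 (h : In f) : ¬ Z (f (E0 cRb)) := by
  rintro ⟨f', h', e⟩
  have ha := act_of_eq gd_Rb e.symm
  have hm := memL h' ha gd_Rb.1 m2 (by decide +kernel)
  have hy : Gd y2 ∧ f (E0 y2) ∈ f'.range :=
    mem_mul (hm _ (List.getElem_mem (n := 2) (by decide))) (hm _ (List.getElem_mem (n := 4) (by decide)))
      (by decide +kernel)
  have hz : Gd cN ∧ f (E0 cN) ∈ f'.range := mem_mul ⟨gd_Rb, z0, e⟩ hy (by decide +kernel)
  obtain ⟨hL, r, hr⟩ := projN h' (l := cN :: (m2.map (·.1)).take 4)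
    (List.forall_mem_cons.2 ⟨hz, fun x hx => hm x (List.mem_of_mem_take hx)⟩) l2 32 (by decide +kernel)
  have h2 := negL h' gd_Rb e.symm hL n2 (by decide +kernel)
  have h3 := valC h h' hz (by decide +kernel)
  have h5 : f (E0 cN) ≠ f' z0 := fun e' => E0_ne gd_cN gd_Rb (by decide +kernel) (h.inj (e'.trans e))
  have h4 := χ_cI (f := f) h'
  obtain ⟨φ, hφ⟩ : ∃ φ : ℕ → ℤ, ∀ c, χ f' (f (E0 c)) = φ c := ⟨_, fun _ => rfl⟩
  simp only [h5, and_false, or_false] at h3
  simp only [hφ, l2, n2, cN, cI, List.map_cons, List.map_nil, List.sum_cons, List.sum_nil,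
    List.forall_mem_cons, List.not_mem_nil, false_imp_iff, implies_true, and_true] at hr h2 h3 h4
  omega

theorem K3 (h : In f) : ¬ Z (f (E0 cRc)) := by
  intro hZ
  obtain ⟨f', h', e⟩ := id hZ
  have ha := act_of_eq gd_Rc e.symm
  have hm := memL h' ha gd_Rc.1 m3 (by decide +kernel)
  obtain ⟨hL, r, hr⟩ := projN h' hm l3 32 (by decide +kernel)
  have h1 := relL h' ha gd_Rc.1 hL p3 (by decide +kernel)
  have h2 := negL h' gd_Rc e.symm hL n3 (by decide +kernel)
  have h3 := valC h h' (hL cN (inL_sound (by decide +kernel))) (by decide +kernel)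
  have hg := hL g3 (inL_sound (by decide +kernel))
  have h6 := valC h h' hg (by decide +kernel)
  have h5 : f (E0 cN) ≠ f' z0 := fun e' => E0_ne gd_cN gd_Rc (by decide +kernel) (h.inj (e'.trans e))
  have h4 := χ_cI (f := f) h'
  obtain ⟨φ, hφ⟩ : ∃ φ : ℕ → ℤ, ∀ c, χ f' (f (E0 c)) = φ c := ⟨_, fun _ => rfl⟩
  have h7 : χ f' (f (E0 g3)) = 4 := by
    simp only [h5, and_false, or_false] at h3
    simp only [hφ, l3, p3, n3, g3, cN, cI, List.map_cons, List.map_nil, List.sum_cons, List.sum_nil,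
      List.forall_mem_cons, List.not_mem_nil, false_imp_iff, implies_true, and_true]
      at hr h1 h2 h3 h4 h6 ⊢
    omega
  obtain ⟨hy, ey⟩ := gd_Rc.mul hg.1 (c := y3) (by decide +kernel)
  have h8 : χ f' (f (E0 y3)) = -4 := by rw [← ey, map_mul, ← e, χ_neg h', h7]
  have h9 : Z (f (E0 y3)) := by
    rw [← (cj_of gd_Rc hy (c := 0x8b2968429083e5384250842308421084211842108518a8c190849cd845d08421084230845cf845cf)
      (y := 0x83a568c24e83a527c631845d38c9ca8422f83e338cd8c8c5ae845ed7c5d183a2f746128460d83e13)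
      (z := 0x8be508be747c25283e318c9ca845d383a548424f8c98c8498e7c9f0841ce7463283a0f83e138460d)
      (by decide +kernel)).2, map_mul, map_mul, map_inv]
    exact hZ.conj _
  obtain ⟨a, ea⟩ : f (E0 y3) ∈ f'.range := (mem_mul ⟨gd_Rc, z0, e⟩ hg (by decide +kernel)).2
  rw [← ea] at h8 h9
  rw [χ_apply h'] at h8
  rcases cls_tr (a := a) (h'.inj (by rw [map_mul, h9.sq, map_one])) with e | e | ⟨c, e | e | e⟩
  · omega
  · omega
  · omega
  · exact K1 (h'.tw c) (by rw [← e.1, tw_cj]; exact h9)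
  · omega

theorem inner_cls (h : In f) {a : L0} (hZ : Z (f a)) : a = z0 ∨ (tr a = 4 ∧ ∃ c, cj c a = E0 cR2) := by
  rcases cls_tr (a := a) (h.inj (by rw [map_mul, hZ.sq, map_one])) with
    e | e | ⟨c, e | e | ⟨e | e, -⟩⟩
  · exact absurd (by rw [e.1, map_one]) hZ.ne
  · exact Or.inl e.1
  · exact Or.inr ⟨e.2, c, e.1⟩
  · exact absurd (by rw [← e.1, tw_cj]; exact hZ) (K1 (h.tw c))
  · exact absurd (by rw [← e, tw_cj]; exact hZ) (K2 (h.tw c))
  · exact absurd (by rw [← e, tw_cj]; exact hZ) (K3 (h.tw c))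

theorem χ_Z (h : In f) {x : G} (hx : x ∈ f.range) (hZ : Z x) (hne : x ≠ f z0) : χ f x = 4 := by
  obtain ⟨a, rfl⟩ := hx
  rcases inner_cls h hZ with rfl | e
  · exact absurd rfl hne
  · rw [χ_apply h, e.1]

theorem K4 (h : In f) {t : G} (hZ : Z t) : ¬ Act f t (E cR0) := by
  obtain ⟨f', h', rfl⟩ := hZ
  intro ha
  have hm := memL h' ha gd_R0.1 m4 (by decide +kernel)
  have hz : Gd cN ∧ f (E0 cN) ∈ f'.range :=
    mem_mul (hm _ (List.getElem_mem (n := 0) (by decide))) (hm _ (List.getElem_mem (n := 2) (by decide)))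
      (by decide +kernel)
  have hl : ∀ x ∈ (m4.map (·.1)).take 2, Gd x ∧ f (E0 x) ∈ f'.range :=
    fun x hx => hm x (List.mem_of_mem_take hx)
  obtain ⟨-, r, hr⟩ := projN h' hl l4 4 (by decide +kernel)
  obtain ⟨hL, r', hr'⟩ := projN h' (List.forall_mem_cons.2 ⟨hz, hl⟩) l4' 8 (by decide +kernel)
  have h1 := relL h' ha gd_R0.1 hL p4 (by decide +kernel)
  have h3 : χ f' (f (E0 cN)) = 4 := by
    refine χ_Z h' hz.2 (by rw [E0_cN]; exact h.z) fun e => ?_
    rw [← e, E0_cN] at ha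
    rcases ha.uniq h (act_self f z0) with e | e
    · exact E_ne gd_R0.1 isW_cN (by decide +kernel) (e.trans E_cN.symm)
    · exact E_ne gd_R0.1 isW_cI (by decide +kernel) (e.trans (negW_sq.trans E_cI.symm))
  have h4 := χ_cI (f := f) h'
  obtain ⟨φ, hφ⟩ : ∃ φ : ℕ → ℤ, ∀ c, χ f' (f (E0 c)) = φ c := ⟨_, fun _ => rfl⟩
  simp only [hφ, l4, l4', p4, cN, cI, List.map_cons, List.map_nil, List.sum_cons, List.sum_nil,
    List.forall_mem_cons, List.not_mem_nil, false_imp_iff, implies_true, and_true] at hr hr' h1 h3 h4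
  omega

/-- `c * τ = τ * x * c` -/
noncomputable def q5Ok (τ x c y z : ℕ) : Bool :=
  gdOk c y z && (invOk x && force (mulN τ x) fun u => mulEq τ x u && eq2 c τ u c)

theorem K5 (h : In f) {t : G} (hZ : Z t) : ¬ Act f t (E cR3) := by
  obtain ⟨f', h', rfl⟩ := hZ
  intro ha
  have hm := memL h' ha isW_R3 m5 (by decide +kernel)
  obtain ⟨hL, r, hr⟩ := projN h' hm l5 16 (by decide +kernel)
  have h1 : ∀ p ∈ q5, χ f' (f (E0 p.1)) = -4 := fun p hp => by
    have e := List.all_eq_true.1 (by decide +kernel :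
      (q5.all fun p => inL l5 p.1 && q5Ok cR3 p.1 p.2.1 p.2.2.1 p.2.2.2) = true) p hp
    rw [q5Ok, force_eq] at e
    generalize mulN cR3 p.1 = u at e
    simp only [Bool.and_eq_true] at e
    obtain ⟨e1, e2, e3, e4, e5⟩ := e
    obtain ⟨hx, hx'⟩ := hL _ (inL_sound e1)
    have hc := gd_of e2
    obtain ⟨hu, eu⟩ := E_mul isW_R3 hx.1 e4
    have e6 := ha.conj_mul (l := E0 p.2.1) (x := 1) (y := E0 p.1) (by
      rw [coe_E0 hc, coe_E0 hx, eu, Subgroup.coe_one, mul_one, E_eq2 hc.1 isW_R3 hu hc.1 e5])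
    rw [map_one, mul_one] at e6
    have e7 := χ_Z h' (mul_mem ⟨z0, rfl⟩ hx') (e6 ▸ h'.z.conj _) fun e =>
      (inv_of hx e3).2 (h.inj ((mul_eq_left.1 e).trans (map_one f).symm))
    rw [χ_neg h'] at e7
    omega
  have h2 : ∀ x ∈ r5, χ f' (f (E0 x)) ≤ 4 := fun x hx => by
    have e := List.all_eq_true.1 (by decide +kernel :
      (r5.all fun x => inL l5 x && invOk x) = true) x hx
    rw [Bool.and_eq_true] at e
    have := valC h h' (hL _ (inL_sound e.1)) e.2
    omega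
  have h4 := χ_cI (f := f) h'
  obtain ⟨φ, hφ⟩ : ∃ φ : ℕ → ℤ, ∀ c, χ f' (f (E0 c)) = φ c := ⟨_, fun _ => rfl⟩
  simp only [hφ, l5, q5, r5, cI, List.map_cons, List.map_nil, List.sum_cons, List.sum_nil,
    List.forall_mem_cons, List.not_mem_nil, false_imp_iff, implies_true, and_true] at hr h1 h2 h4
  omega

theorem tri (h : In f) {x : G} (hZ : Z x) (hc : x * f z0 = f z0 * x) (hne : x ≠ f z0) :
    (x ∈ f.range ∧ χ f x = 4) ∨ ∃ c, Act (tw f c) x (E cR1) := by
  obtain ⟨w, hw⟩ := exists_act h hc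
  obtain ⟨c, n, hn, e⟩ := classify (hw.sq h hZ.sq)
  have ha : Act (tw f c) x (E n) := by
    rcases e with e | e
    · exact e ▸ hw.tw c
    · exact Act.of_neg (e ▸ hw.tw c)
  have hin : Gd n → mulEq n n cI = true → x ∈ f.range ∧ χ f x = 4 := fun hg h2 => by
    rw [← coe_E0 hg] at ha
    obtain ⟨k, hk, ek⟩ := ha.dec (h.tw c)
    have hx : x ∈ f.range := by
      rcases (h.tw c).inv_dec hk (ek ▸ hZ.sq) with ⟨b, hb, -⟩ | ⟨-, e⟩
      · rw [← tw_range f c]; exact ⟨b, (ek.trans hb).symm⟩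
      · rw [(hg.mul hg h2).2, E0_cI] at e
        exact absurd e.symm z0_ne
    exact ⟨hx, χ_Z h hx hZ hne⟩
  simp only [repL, List.mem_cons, List.not_mem_nil, or_false] at hn
  rcases hn with rfl | rfl | rfl | rfl | rfl | rfl | rfl
  · exact Or.inl (hin gd_cI (by decide +kernel))
  · exact Or.inr ⟨c, ha⟩
  · exact Or.inl (hin gd_R2 (by decide +kernel))
  · exact absurd ha (K5 (h.tw c) hZ)
  · exact Or.inl (hin gd_Rb (by decide +kernel))
  · exact Or.inl (hin gd_Rc (by decide +kernel))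
  · exact absurd ha (K4 (h.tw c) hZ)

theorem refl_of (h : In f) {x : G} (hZ : Z x) (hZ' : Z (f z0 * x)) (hc : x * f z0 = f z0 * x) :
    ∃ w u, Act f x w ∧ Q2 u ≠ 0 ∧ π w = refl Q2 u := by
  have hne : x ≠ f z0 := fun e => hZ'.ne (by rw [e, h.z_sq])
  rcases tri h hZ hc hne with ⟨h1, h2⟩ | ⟨c, ha⟩
  · have := χ_Z h (mul_mem ⟨z0, rfl⟩ h1) hZ' fun e => hZ.ne (mul_eq_left.1 e)
    rw [χ_neg h] at this
    omega
  · obtain ⟨r, hr, e⟩ := E_R1
    refine ⟨c⁻¹ * E cR1 * c⁻¹⁻¹, (π c⁻¹).1 (red r), fun a => ?_, ?_, ?_⟩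
    · rw [← tw_cj f c a, ha, cj_mul, cj_mul, inv_inv]; rfl
    · rw [O.map_Q, Q2_root hr]; exact one_ne_zero
    · rw [map_mul, map_mul, map_inv π c⁻¹, e, π_Rf, refl_conj]

theorem refl_pow {u v : ι → F2} (hu : Q2 u ≠ 0) (hv : Q2 v ≠ 0) : (refl Q2 u * refl Q2 v) ^ 6 = 1 := by
  have h1 := refl_conj (refl Q2 u) v
  have h2 := refl_conj (refl Q2 v) u
  rw [refl_inv, refl_apply, F2_eq_one _ hu, inv_one, one_mul] at h1
  rw [refl_inv, refl_apply, F2_eq_one _ hv, inv_one, one_mul, QuadraticMap.polar_comm] at h2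
  have su := refl_mul_self (Q := Q2) u
  have sv := refl_mul_self (Q := Q2) v
  by_cases e : QuadraticMap.polar Q2 v u = 0
  · rw [e, zero_smul, sub_zero] at h1
    rw [show 6 = 2 * 3 from rfl, pow_mul, pow_two, ← mul_assoc, h1, sv, one_pow]
  · rw [F2_eq_one _ e, one_smul] at h1 h2
    rw [← neg_sub, refl_neg, ← h1] at h2
    rw [show 6 = 3 * 2 from rfl, pow_mul, pow_succ (n := 2), pow_two (refl Q2 u * refl Q2 v)]
    generalize refl Q2 u = a at *
    generalize refl Q2 v = b at *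
    rw [show a * b * (a * b) * (a * b) = a * b * a * (b * a * b) by group, h2,
      show a * b * a * (a * b * a) = a * (b * (a * a) * b) * a by group, su, mul_one, sv, mul_one, su,
      one_pow]

theorem K6 (h : In f) : ¬ Z (f (E0 cR2)) := by
  intro hZ
  obtain ⟨f', h', e⟩ := id hZ
  have ha := act_of_eq gd_R2 e.symm
  have key : ∀ x u c y z c' y' z' : ℕ, (isW x && (mulEq cR2 x u && (eq2 cR2 x x cR2 &&
      (cjOk cR2 x c y z && cjOk cR2 u c' y' z')))) = true →
      Gd x ∧ ∃ w u, Act f' (f (E0 x)) w ∧ Q2 u ≠ 0 ∧ π w = refl Q2 u := by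
    intro x u c y z c' y' z' k
    simp only [Bool.and_eq_true] at k
    obtain ⟨k1, k2, k3, k4, k5⟩ := k
    have hx : Gd x := by
      refine ⟨isW_of k1, ?_⟩
      have k6 := k4
      rw [cjOk, Bool.and_eq_true] at k6
      have hc := gd_of k6.1
      rw [← mul_inv_eq_of_eq_mul (E_eq2 hc.1 gd_R2.1 (isW_of k1) hc.1 k6.2)]
      exact mul_mem (mul_mem hc.2 gd_R2.2) (inv_mem hc.2)
    obtain ⟨hu, eu⟩ := gd_R2.mul hx k2
    refine ⟨hx, refl_of h' ?_ ?_ (ha.commC gd_R2.1 hx k3)⟩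
    · rw [← (cj_of gd_R2 hx k4).2, map_mul, map_mul, map_inv]; exact hZ.conj _
    · rw [e, ← map_mul, eu, ← (cj_of gd_R2 hu k5).2, map_mul, map_mul, map_inv]; exact hZ.conj _
  obtain ⟨g1, w1, u1, a1, q1, r1⟩ := key
    0x8c210842108460f8421084233842108420f84210842128c21084210846108420f84230841ef845ef
    0x8b2968429083e528425084233842108420f842108518c8c190849cd845d08420f84230845ed841f1
    0x84a108c1d084231846109518c9459083a53842508c1ce84210842108423073e517423083a5283e71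
    0x7ca328b630842107c5f06d2308b23093a1184a10845ee8c210841ee7c9d083dee749d093a1084a11
    0x632935be307be5383a50732505ce1084a1193a10949ac8cdd0949cf9c210945f19be308cdef9ba11
    0x8ba9283a948462f83e328369684270849cd841d0841d28c9cc845cf849ce845ee84210849ad845af
    0x941d08c5ee8c5d08c5ee8c1f08c5ee84211842107c25083e32842108461084210842308421084211
    0x8ba54842508425183e52841d384daa8424f83a548498e8c98c845ee845f08422f83e528460d83e13
    (by decide +kernel)
  obtain ⟨g2, w2, u2, a2, q2, r2⟩ := key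
    0x93a728ba948425183e52a41b0a421074251742108c96e9498c845cf849ce7c2307c2307460f745cf
    0x939f48ca0c842128460ea41b0a421074251742108c9ec93a148460e842127c2307c2307425074211
    0x749cc6cd6f7c6107c5ef8cdca8bdd47be337c60e9c210a367393e3293e7183e328424f83a548424f
    0x8ba7693a9083a537c630ac1b0ac230742517421094d6a945b0845cd7c9b073e306c5f07460f745cf
    0x73e34745ec845f28c5ed73e306c1d18c2118c62f8c20c83e158c9ee93e12849f093e0f9421094251
    0x6c5ed6496f74231741ef8cdca8bdd47be337c60ea45efaba7393e3293e717ba537be4f8be138c62e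
    0x8c21084210846108421084230842108421184210842108c210842108461084210842308421084211
    0x8c9ed849f17462f741f19cd4d9cd8c7be727be52941b19c1ed7be117c1ef6be506be117ba737be51
    (by decide +kernel)
  have hk := ((a1.mul a2).pow 6).mem_K (by rw [map_pow, map_mul, r1, r2, refl_pow q1 q2])
  obtain ⟨g3, e3⟩ := g1.mul g2 (c := 0x93a728ba949421093e527427374210941cf942106c9f07498c845cf849ce8c1ef8c2308c1cf8c5ef)
    (by decide +kernel)
  have e4 := (word_E0 (l := List.replicate 5 _) g3 (fun x hx => by rw [List.eq_of_mem_replicate hx]; exact g3)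
    (n := cRb) (by decide +kernel)).2
  rw [List.map_replicate, List.prod_replicate, ← pow_succ'] at e4
  rw [← map_mul, ← map_pow, e3, e4] at hk
  obtain ⟨s1, s2⟩ := inv_of gd_Rb (by decide +kernel)
  rcases h'.inv_eq hk (by rw [← map_mul, s1, map_one]) with e5 | e5
  · exact s2 (h.inj (e5.trans (map_one f).symm))
  · exact E0_ne gd_Rb gd_R2 (by decide +kernel) (h.inj (e5.trans e))

theorem only_z (h : In f) {a : L0} (hZ : Z (f a)) : a = z0 := by
  rcases inner_cls h hZ with e | ⟨-, c, e⟩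
  · exact e
  · exact absurd (by rw [← e, tw_cj]; exact hZ) (K6 (h.tw c))

theorem tri' (h : In f) {x : G} (hZ : Z x) (hc : x * f z0 = f z0 * x) (hne : x ≠ f z0) :
    ∃ c, Act (tw f c) x (E cR1) := by
  rcases tri h hZ hc hne with ⟨⟨a, rfl⟩, -⟩ | e
  · exact absurd (congrArg f (only_z h hZ)) hne
  · exact e

theorem comm_eq (h : In f) {u v : G} (hu : u * f z0 = f z0 * u) (hv : v * f z0 = f z0 * v)
    (hZ : Z (u * v * u⁻¹ * v⁻¹)) : u * v * u⁻¹ * v⁻¹ = f z0 := by
  obtain ⟨w, hw⟩ := exists_act h hu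
  obtain ⟨w', hw'⟩ := exists_act h hv
  have ha := ((hw.mul hw').mul hw.inv).mul hw'.inv
  by_contra hne
  obtain ⟨c, hc⟩ := tri' h hZ ha.comm_z hne
  have hm : c * (w * w' * w⁻¹ * w'⁻¹) * c⁻¹ ∈ L0 := Normal.conj_mem inferInstance _ (comm_mem w w') c
  rcases hc.uniq (h.tw c) (ha.tw c) with e | e
  · exact R1_not (e ▸ hm)
  · exact R1_not (e ▸ mul_mem negW_mem hm)

end H52.E8
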