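import Cfsg.Agent.Lib.E8W.Kill

/-!
The reflection case, and normality of a standard subgroup `2·Ω₈⁺(2)`.
-/

set_option autoImplicit false
set_option linter.style.haveILetI false

namespace H52.E8

open H10.Std Subgroup H12 Matrix

attribute [local irreducible] E E0 χ

variable {G : Type*} [Group G] [Finite G] {f f' : L0 →* G}

theorem d8 {u v z : G} (hu : u * u = 1) (hv : v * v = 1) (hz : z * z = 1) (uz : u * z = z * u)
    (vz : v * z = z * v) (e : v * u * v⁻¹ = z * u) : IsPGroup 2 ↥(zpowers v ⊔ (zpowers u ⊔ zpowers z)) := by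
  haveI := Fact.mk Nat.prime_two
  have p : ∀ x : G, x * x = 1 → IsPGroup 2 (zpowers x) := fun x hx =>
    IsPGroup.of_card_dvd_pow (n := 1) (by
      rw [Nat.card_zpowers]; exact orderOf_dvd_of_pow_eq_one (by simpa [pow_two] using hx))
  have n : ∀ (x : G) (K : Subgroup G), K.map (MulAut.conj x).toMonoidHom ≤ K →
      zpowers x ≤ normalizer (K : Set G) := fun x K h =>
    zpowers_le.2 (mem_normalizer_fintype fun y hy => h ⟨y, hy, rfl⟩)
  refine (p v hv).to_sup_of_normal_right' ((p u hu).to_sup_of_normal_right' (p z hz) (n _ _ ?_))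
    (n _ _ ?_)
  · rw [MonoidHom.map_zpowers, zpowers_le]
    show u * z * u⁻¹ ∈ _
    rw [uz, mul_inv_cancel_right]; exact mem_zpowers z
  · rw [Subgroup.map_sup, MonoidHom.map_zpowers, MonoidHom.map_zpowers, sup_le_iff, zpowers_le,
      zpowers_le]
    constructor
    · show v * u * v⁻¹ ∈ _
      rw [e]; exact mul_mem (mem_sup_right (mem_zpowers z)) (mem_sup_left (mem_zpowers u))
    · show v * z * v⁻¹ ∈ _
      rw [vz, mul_inv_cancel_right]; exact mem_sup_right (mem_zpowers z)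

/-- a dihedral group of order 8 with centre `z0` centralising `x` -/
def HasD (x : L0) : Prop := ∃ a b : L0, a * a = 1 ∧ b * b = 1 ∧ a * x = x * a ∧ b * x = x * b ∧
  b * a * b⁻¹ * a⁻¹ = z0

theorem HasD.sub (h : In f) {x : L0} (hx : HasD x) : ∃ (D : Subgroup G) (u v : G), IsPGroup 2 D ∧
    D ≤ centralizer {f x} ∧ D ≤ centralizer {f z0} ∧ u ∈ D ∧ v ∈ D ∧ u * v * u⁻¹ * v⁻¹ = f z0 := by
  obtain ⟨a, b, h1, h2, h3, h4, h5⟩ := hx
  have c : ∀ y, a * y = y * a → b * y = y * b →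
      zpowers (f b) ⊔ (zpowers (f a) ⊔ zpowers (f z0)) ≤ centralizer {f y} := fun y e1 e2 => by
    simp only [sup_le_iff, zpowers_le, mem_centralizer_singleton_iff, ← map_mul]
    exact ⟨by rw [e2], by rw [e1], by rw [z0_comm]⟩
  refine ⟨_, f b, f a, d8 (by rw [← map_mul, h1, map_one]) (by rw [← map_mul, h2, map_one]) h.z_sq
    (h.f_comm_z a) (h.f_comm_z b) ?_, c x h3 h4, c z0 (z0_comm a) (z0_comm b),
    mem_sup_left (mem_zpowers _), mem_sup_right (mem_sup_left (mem_zpowers _)), ?_⟩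
  · rw [← map_inv, ← map_mul, ← map_mul, ← map_mul, ← h5, inv_mul_cancel_right]
  · rw [← h5]; simp

theorem conj_z (h : In f) {u v n : G} (e : u * v * u⁻¹ * v⁻¹ = f z0)
    (hu : n * u * n⁻¹ ∈ centralizer {f z0}) (hv : n * v * n⁻¹ ∈ centralizer {f z0}) :
    n * f z0 = f z0 * n := by
  have e' : n * u * n⁻¹ * (n * v * n⁻¹) * (n * u * n⁻¹)⁻¹ * (n * v * n⁻¹)⁻¹ = n * f z0 * n⁻¹ := by
    rw [← e]; group
  have := comm_eq h (mem_centralizer_singleton_iff.1 hu) (mem_centralizer_singleton_iff.1 hv)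
    (e' ▸ h.z.conj n)
  exact mul_inv_eq_iff_eq_mul.1 (e'.symm.trans this)

/-- control of fusion -/
theorem fus (h : In f) {x y : L0} (hx : HasD x) (hy : HasD y) {g : G} (e : g * f x * g⁻¹ = f y) :
    ∃ w, cj w x = y := by
  haveI := Fact.mk Nat.prime_two
  obtain ⟨D, u, v, p, d1, d2, hu, hv, e1⟩ := hy.sub h
  obtain ⟨T, hDT, hT, hp, hs⟩ := exists_syl d1 p
  have hTH : T ≤ centralizer {f z0} := by
    rw [← subgroupOf_eq_top]
    by_contra hne
    haveI := hp.isNilpotent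
    obtain ⟨n, hn, hn'⟩ := SetLike.exists_of_lt
      (Group.normalizerCondition_of_isNilpotent _ (lt_top_iff_ne_top.2 hne))
    exact hn' (mem_centralizer_singleton_iff.2 (conj_z h e1
      ((mem_normalizer_iff.1 hn ⟨u, hDT hu⟩).1 (d2 hu)) ((mem_normalizer_iff.1 hn ⟨v, hDT hv⟩).1 (d2 hv))))
  obtain ⟨D', u', v', p', d1', -, hu', hv', e2⟩ := hx.sub h
  obtain ⟨c, hc, hc'⟩ := hs (D'.map (MulAut.conj g).toMonoidHom) (by
    rintro _ ⟨a, ha, rfl⟩
    have := mem_centralizer_singleton_iff.1 (d1' ha)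
    rw [mem_centralizer_singleton_iff, ← e]
    show g * a * g⁻¹ * _ = _ * (g * a * g⁻¹)
    calc _ = g * (a * f x) * g⁻¹ := by group
      _ = _ := by rw [this]; group) (p'.map _)
  have k : ∀ a ∈ D', c * g * a * (c * g)⁻¹ ∈ centralizer {f z0} := fun a ha => by
    have := hTH (hc' _ ⟨a, ha, rfl⟩)
    rwa [show c * g * a * (c * g)⁻¹ = c * (g * a * g⁻¹) * c⁻¹ by group]
  obtain ⟨w, hw⟩ := exists_act h (conj_z h e2 (k _ hu') (k _ hv'))
  refine ⟨w, h.inj ?_⟩
  rw [← hw, show c * g * f x * (c * g)⁻¹ = c * (g * f x * g⁻¹) * c⁻¹ by group, e,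
    mem_centralizer_singleton_iff.1 hc, mul_inv_cancel_right]

theorem hasD_of {x a b : ℕ} (hx : Gd x) (ha : Gd a) (hb : Gd b) (h : (mulEq a a cI && (mulEq b b cI &&
    (eq2 a x x a && (eq2 b x x b && cmOk b a cN)))) = true) : HasD (E0 x) := by
  simp only [Bool.and_eq_true] at h
  obtain ⟨h1, h2, h3, h4, h5⟩ := h
  exact ⟨E0 a, E0 b, (ha.mul ha h1).2.trans E0_cI, (hb.mul hb h2).2.trans E0_cI,
    E0_eq2 ha hx hx ha h3, E0_eq2 hb hx hx hb h4, (comm_E0 hb ha gd_cN h5).trans E0_cN⟩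

theorem not_cj (hx : Gd x7) (hy : Gd y7) (w : W) : cj w (E0 x7) ≠ E0 y7 := fun e => by
  have h1 : ∀ v, 2 ∣ β v (dec x7 *ᵥ v) := fun v => by
    have : A * dec x7 = dec 0x8c2108421093e108421074230842107c5ef842109c1cf8c21084dd0942108422f83a308424f83a52 +
        (dec 0x8c2108421093e108421074230842107c5ef842109c1cf8c21084dd0942108422f83a308424f83a52)ᵀ := by
      decide +kernel
    rw [β, mulVec_mulVec, this, add_mulVec, dotProduct_add, dot_tr]
    exact ⟨_, (two_mul _).symm⟩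
  have h2 : ¬ 2 ∣ β (vec 0x845b274232) (dec y7 *ᵥ vec 0x845b274232) := by decide +kernel
  refine h2 ?_
  rw [← mat_E0 hy, ← e, coe_cj, ← β_map w⁻¹, mulVec_mulVec, ← map_mul, ← mul_assoc, inv_mul_cancel_left,
    map_mul, ← mulVec_mulVec, mat_E0 hx]
  exact h1 _

theorem K7 (h : In f) {t : G} (hZ : Z t) : ¬ Act f t (E cR1) := by
  obtain ⟨f', h', rfl⟩ := hZ
  intro ha
  have hne : ∀ a, f a ≠ f' z0 := fun a e => R1_not (Act.mem_of_eq h (e ▸ ha))
  obtain ⟨hL, r, hr⟩ := projN h' (memL h' ha isW_R1 m7 (by decide +kernel)) l7 8 (by decide +kernel)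
  obtain ⟨hL', r', hr'⟩ := projN h' (memL h' ha isW_R1 m8 (by decide +kernel)) l8 8 (by decide +kernel)
  have h1 := relL h' ha isW_R1 hL p7 (by decide +kernel)
  have h2 := relL h' ha isW_R1 hL' p8 (by decide +kernel)
  have hx := hL x7 (inL_sound (by decide +kernel))
  have hy := hL' y7 (inL_sound (by decide +kernel))
  have h3 := valC h h' hx (by decide +kernel)
  have h5 := valC h h' hy (by decide +kernel)
  have h6 := valC h h' (hL' a8' (inL_sound (by decide +kernel))) (by decide +kernel)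
  have h4 := χ_cI (f := f) h'
  have h7 : χ f' (f (E0 x7)) = 0 ∧ χ f' (f (E0 y7)) = 0 := by
    simp only [hne, and_false, or_false] at h3 h5 h6
    obtain ⟨φ, hφ⟩ : ∃ φ : ℕ → ℤ, ∀ c, χ f' (f (E0 c)) = φ c := ⟨_, fun _ => rfl⟩
    simp only [hφ, l7, l8, p7, p8, x7, y7, a8', cI, List.map_cons, List.map_nil, List.sum_cons,
      List.sum_nil, List.forall_mem_cons, List.not_mem_nil, false_imp_iff, implies_true, and_true]
      at hr hr' h1 h2 h3 h4 h5 h6 ⊢
    omega
  have key : ∀ a : L0, a * a = 1 → f a ∈ f'.range → χ f' (f a) = 0 →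
      ∃ g, g * f a * g⁻¹ = f' z0 * f a := by
    rintro a h2 ⟨b, e⟩ h0
    rw [← e, χ_apply h'] at h0
    obtain ⟨l, hl⟩ := neg_of_tr (h'.inj (by rw [map_mul, e, ← map_mul, h2, map_one, map_one])) h0
    exact ⟨f' l, by rw [← e, ← map_inv, ← map_mul, ← map_mul, hl, map_mul]⟩
  obtain ⟨g1, e1⟩ := key _ (inv_of hx.1 (by decide +kernel)).1 hx.2 h7.1
  obtain ⟨g2, e2⟩ := key _ (inv_of hy.1 (by decide +kernel)).1 hy.2 h7.2
  have hl := gd_of (n := 0x8b6547ce4e8b653842707d2118c1cf836317c2507d9ac939918460f8ba128ba3083e5283e0f83e31)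
    (y := 0x8c270936957c65083a3393e308c25184210842118bdb07d1ab7c5f07c5ce6c63073df0845cf845cf)
    (z := 0x7ca0e836328c2108461154a6f6ae319c1d0949f06be5173e0f83a327ca0f93a1284e0f9bdf194a10)
    (by decide +kernel)
  obtain ⟨i1, j1⟩ := E_mul isW_R1 hx.1.1
    (c := 0x63ab26b6927be717be5274231742108420f842109c96e94d8e949cf945d08c2308be32945cf945ef)
    (by decide +kernel)
  obtain ⟨i2, j2⟩ := E_mul isW_R1 hy.1.1
    (c := 0x732b26be9273e717b67292e3174e3074a0f83a10a456e9518e8c9cf93df07ca308b63284dcf93def)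
    (by decide +kernel)
  have e3 := ha.conj_mul (l := E0 _) (x := E0 x7) (y := E0 y7) (by
    rw [coe_E0 hl, coe_E0 hx.1, coe_E0 hy.1, j1, j2]
    exact E_eq2 hl.1 i1 i2 hl.1 (by decide +kernel))
  have dx : HasD (E0 x7) := hasD_of hx.1 (gd_of (n := 0x9b2559429093e1194250941f2942108420f84210751cd7c190849cd845d08420f842307c5ee7c5cf)
    (y := 0x83dee7c9d08c9ce941f06c20e6459094210942517425273e108c9f093e108c9f09ba309421194250)
    (z := 0x83a4f742327be4f742328ce109b61283a0f74a108d1b1a3dce846118c21073e51742308bdf084a0f)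
    (by decide +kernel)) (gd_of (n := 0x951cfa39f29461094212755cd8b9d093a1184a1063e2f6420e7ba51746308ba51842528b6327ca2f)
    (y := 0x7c65283a308be31846308c9f193e108420f842108c5ae8c5d093df08ca108b6317ca30841ef845ef)
    (z := 0xa4dac9c9d28c23084612ac18ea461074251742107ba1283a4e73a5273e3073e7173e326c25273e0f)
    (by decide +kernel)) (by decide +kernel)
  have dy : HasD (E0 y7) := hasD_of hy.1 (gd_of (n := 0x941f08c5d1849f08c1d093230752117cdef8b9f08363074a4f7c6108420f7c9f08bdef74a1083a0f)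
    (y := 0x93a728ba948ca0f93a32932768c690849cd841d07bdf27cdcc849cf8c5ce7cdee8b9f07c9cd7c5af)
    (z := 0x9bdd0851cf7ba52742309d58ea49af7b65274230851ee9ba116c6507b6316ba716ba5173a5173e30)
    (by decide +kernel)) (gd_of (n := 0x935d2851ed93e1294250745d07c98c93e318c25264e2e739d07ca308b6318c61093a518425083a53)
    (y := 0x8c6149be0e7cdf08bdcf932768c69084dad8c1af8b25074a727c20e745f16ca0e73dd0849cc841d1)
    (z := 0x836527423183a527c2516460e6418f9be1194651751ac8418e7c6108420f842328be509421094251)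
    (by decide +kernel)) (by decide +kernel)
  rw [← e1, ← e2] at e3
  generalize f (E0 0x8b6547ce4e8b653842707d2118c1cf836317c2507d9ac939918460f8ba128ba3083e5283e0f83e31) = l at e3
  obtain ⟨w, hw⟩ := fus h dx dy (g := g2⁻¹ * l * g1) (by
    calc _ = g2⁻¹ * (l * (g1 * f (E0 x7) * g1⁻¹) * l⁻¹) * g2 := by group
      _ = _ := by rw [e3]; group)
  exact not_cj hx.1 hy.1 w hw

theorem normal (h : In f) (hO : Cfsg.oddCore G = ⊥) : f.range.Normal := by
  by_contra hn
  obtain ⟨g, h1, h2⟩ := h.exists_conj hO hn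
  obtain ⟨c, hc⟩ := tri' h (h.z.conj g) h2 h1
  exact K7 (h.tw c) (h.z.conj g) hc

end H52.E8
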